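import Cfsg.Agent.Alperin.Centric
import Cfsg.Agent.Coprime.Generation
import Cfsg.Agent.Eq.Def_SylowChains

/-!
A finite group with a proper subgroup `K` that contains every `c` with `c a c⁻¹ ∈ R` for some nontrivial `a`
of the Sylow subgroup `R`: its Sylow subgroups are not chain-connected, and it has a least normal subgroup of
order divisible by `p`.
-/

set_option autoImplicit false

open scoped Pointwise

namespace CfsgLib.Alperin48

variable {Γ : Type*} [Group Γ] [Finite Γ] {p : ℕ} [Fact p.Prime]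

/-- `K` contains every element carrying a nontrivial element of `R` into `R`. -/
def ControlsMeet (R : Sylow p Γ) (K : Subgroup Γ) : Prop :=
  ∀ c a : Γ, a ≠ 1 → a ∈ (R : Subgroup Γ) → c * a * c⁻¹ ∈ (R : Subgroup Γ) → c ∈ K

theorem mem_of_mem_sylow {R : Sylow p Γ} {K : Subgroup Γ} (hK : ControlsMeet R K)
    (hR : (R : Subgroup Γ) ≠ ⊥) {r : Γ} (hr : r ∈ (R : Subgroup Γ)) : r ∈ K := by
  obtain ⟨a, ha, ha1⟩ := (Subgroup.bot_or_exists_ne_one (R : Subgroup Γ)).resolve_left hR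
  exact hK r a ha1 ha (mul_mem (mul_mem hr ha) (inv_mem hr))

theorem eq_top_of_chainConnected {R : Sylow p Γ} {K : Subgroup Γ} (hK : ControlsMeet R K)
    (hR : (R : Subgroup Γ) ≠ ⊥) (hconn : Cfsg.IsSylowChainConnected p Γ) : K = ⊤ := by
  have hsmul : ∀ (g : Γ) (x : Γ), x ∈ ((g • R : Sylow p Γ) : Subgroup Γ) ↔ g⁻¹ * x * g ∈ (R : Subgroup Γ) := by
    intro g x
    rw [Sylow.coe_subgroup_smul, Subgroup.mem_pointwise_smul_iff_inv_smul_mem]
    simp
  rw [eq_top_iff]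
  intro g _
  obtain ⟨n, c, hc0, hcn, -, hstep⟩ := hconn R (g • R)
  suffices hall : ∀ i : Fin (n + 1), ∀ m : Γ, m • R = c i → m ∈ K from hall (Fin.last n) g hcn.symm
  intro i
  induction i using Fin.induction with
  | zero =>
    intro m hm
    obtain ⟨a, ha, ha1⟩ := (Subgroup.bot_or_exists_ne_one (R : Subgroup Γ)).resolve_left hR
    have hm' : m⁻¹ * a * m ∈ (R : Subgroup Γ) := by
      rw [← hsmul, hm, hc0]; exact ha
    have := hK m⁻¹ a ha1 ha (by simpa using hm')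
    simpa using inv_mem this
  | succ j ih =>
    intro m hm
    obtain ⟨l, hl⟩ := MulAction.exists_smul_eq Γ R (c j.castSucc)
    obtain ⟨-, hne⟩ := hstep j
    obtain ⟨q, ⟨hq1, hq2⟩, hq⟩ := (Subgroup.bot_or_exists_ne_one _).resolve_left hne
    replace hq1 : q ∈ ((l • R : Sylow p Γ) : Subgroup Γ) := by rw [hl]; exact hq1
    replace hq2 : q ∈ ((m • R : Sylow p Γ) : Subgroup Γ) := by rw [hm]; exact hq2
    rw [hsmul] at hq1 hq2
    have hq' : l⁻¹ * q * l ≠ 1 := by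
      intro h
      apply hq
      calc q = l * (l⁻¹ * q * l) * l⁻¹ := by group
        _ = 1 := by rw [h]; group
    have h1 := hK (m⁻¹ * l) (l⁻¹ * q * l) hq' hq1
      (by rw [show m⁻¹ * l * (l⁻¹ * q * l) * (m⁻¹ * l)⁻¹ = m⁻¹ * q * m by group]; exact hq2)
    have h2 := mul_mem (ih l hl) (inv_mem h1)
    rwa [show l * (m⁻¹ * l)⁻¹ = m by group] at h2

theorem exists_orderOf_eq_mem (R : Sylow p Γ) {Y : Subgroup Γ} [hY : Y.Normal] (hp : p ∣ Nat.card Y) :
    ∃ a : Γ, a ∈ (R : Subgroup Γ) ∧ a ∈ Y ∧ orderOf a = p := by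
  obtain ⟨y, hy⟩ := exists_prime_orderOf_dvd_card' (G := Y) p hp
  have hyo : orderOf (y : Γ) = p := by rw [Subgroup.orderOf_coe, hy]
  have hyP : IsPGroup p ↥(Subgroup.zpowers (y : Γ)) :=
    IsPGroup.of_card (n := 1) (by rw [Nat.card_zpowers, hyo, pow_one])
  obtain ⟨T, hT⟩ := hyP.exists_le_sylow
  obtain ⟨g, hg⟩ := MulAction.exists_smul_eq Γ T R
  refine ⟨g * y * g⁻¹, ?_, hY.conj_mem _ y.2 g, ?_⟩
  · rw [← hg, Sylow.coe_subgroup_smul]
    exact Subgroup.smul_mem_pointwise_smul _ (MulAut.conj g) _ (hT (Subgroup.mem_zpowers _))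
  · exact (MulEquiv.orderOf_eq (MulAut.conj g) (y : Γ)).trans hyo

theorem not_le_of_normal {R : Sylow p Γ} {K : Subgroup Γ} (hK : ControlsMeet R K) (hKtop : K ≠ ⊤)
    {Y : Subgroup Γ} [hY : Y.Normal] (hp : p ∣ Nat.card Y) : ¬ Y ≤ K := by
  intro hYK
  apply hKtop
  rw [eq_top_iff]
  intro n _
  obtain ⟨a, haR, haY, ha⟩ := exists_orderOf_eq_mem R hp
  have hidx : ¬ p ∣ ((R : Subgroup Γ) ⊓ Y).relIndex Y :=
    CfsgLib.Alperin.not_dvd_relIndex_inf R (N := ⊤)
      (by rw [inf_top_eq, Subgroup.relIndex_top_right]; exact R.not_dvd_index) le_top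
      (fun x _ => by rw [Subgroup.normalizer_eq_top]; trivial)
  obtain ⟨y, hy, hle⟩ := CfsgLib.Alperin.exists_mem_conj_map_le (inf_le_right : (R : Subgroup Γ) ⊓ Y ≤ Y)
    (R.2.to_le inf_le_left) hidx (A := ((R : Subgroup Γ) ⊓ Y).map (MulAut.conj n).toMonoidHom)
    (by rintro _ ⟨x, hx, rfl⟩; exact hY.conj_mem _ hx.2 n) ((R.2.to_le inf_le_left).map _)
  rw [CfsgLib.Alperin.conj_map_map] at hle
  have h1 : y * n ∈ K := by
    refine hK _ a ?_ haR (hle (CfsgLib.Alperin.conj_mem_conj_map _ ⟨haR, haY⟩)).1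
    intro h
    rw [h, orderOf_one] at ha
    exact (Fact.out : p.Prime).one_lt.ne ha
  have := mul_mem (inv_mem (hYK hy)) h1
  rwa [inv_mul_cancel_left] at this

theorem dvd_card_inf {R : Sylow p Γ} {K : Subgroup Γ} (hK : ControlsMeet R K) (hKtop : K ≠ ⊤)
    {Y₁ Y₂ : Subgroup Γ} [h1 : Y₁.Normal] [h2 : Y₂.Normal] (hp1 : p ∣ Nat.card Y₁) (hp2 : p ∣ Nat.card Y₂) :
    p ∣ Nat.card ↥(Y₁ ⊓ Y₂) := by
  by_contra hnd
  set Z := Y₁ ⊓ Y₂ with hZ
  have hp : p.Prime := Fact.out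
  obtain ⟨e, heR, heY, heo⟩ := exists_orderOf_eq_mem R hp1
  obtain ⟨f, hfR, hfY, hfo⟩ := exists_orderOf_eq_mem R hp2
  have hep : e ^ p = 1 := by rw [← heo]; exact pow_orderOf_eq_one e
  have hfp : f ^ p = 1 := by rw [← hfo]; exact pow_orderOf_eq_one f
  have hf1 : f ≠ 1 := fun h => by rw [h, orderOf_one] at hfo; exact hp.one_lt.ne hfo
  have he1 : e ≠ 1 := fun h => by rw [h, orderOf_one] at heo; exact hp.one_lt.ne heo
  have hRne : (R : Subgroup Γ) ≠ ⊥ := fun h => hf1 (Subgroup.mem_bot.1 (h ▸ hfR))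
  have hdisj : ∀ x ∈ (R : Subgroup Γ), x ∈ Z → x = 1 := by
    intro x hxR hxZ
    obtain ⟨k, hk⟩ := IsPGroup.iff_orderOf.1 R.2 ⟨x, hxR⟩
    rw [Subgroup.orderOf_mk] at hk
    have hd : orderOf x ∣ Nat.card Z := by
      rw [← Subgroup.orderOf_mk x hxZ]; exact orderOf_dvd_natCard _
    refine orderOf_eq_one_iff.1 ?_
    rcases Nat.eq_zero_or_pos k with rfl | hk0
    · simpa using hk
    · exact absurd ((dvd_pow_self p hk0.ne').trans (hk ▸ hd)) hnd
  have hef : e * f = f * e := by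
    have hR' : e * f * e⁻¹ * f⁻¹ ∈ (R : Subgroup Γ) :=
      mul_mem (mul_mem (mul_mem heR hfR) (inv_mem heR)) (inv_mem hfR)
    have hZ' : e * f * e⁻¹ * f⁻¹ ∈ Z := by
      refine ⟨?_, Y₂.mul_mem (h2.conj_mem f hfY e) (Y₂.inv_mem hfY)⟩
      rw [show e * f * e⁻¹ * f⁻¹ = e * (f * e⁻¹ * f⁻¹) by group]
      exact Y₁.mul_mem heY (h1.conj_mem _ (Y₁.inv_mem heY) f)
    have h := hdisj _ hR' hZ'
    calc e * f = (e * f * e⁻¹ * f⁻¹) * (f * e) := by group
      _ = f * e := by rw [h, one_mul]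
  set A : Subgroup Γ := Subgroup.closure {e, f} with hA
  have hAcomm : IsMulCommutative A := by
    refine Subgroup.isMulCommutative_closure ?_
    rintro x (rfl | rfl) y (rfl | rfl) <;> first | rfl | exact hef | exact hef.symm
  have hAR : A ≤ (R : Subgroup Γ) := by
    rw [hA, Subgroup.closure_le]
    rintro x (rfl | rfl) <;> assumption
  have hAP : IsPGroup p A := R.2.to_le hAR
  have hcop : (Nat.card A).Coprime (Nat.card Z) := by
    obtain ⟨k, hk⟩ := IsPGroup.iff_card.1 hAP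
    rw [hk]
    exact Nat.Coprime.pow_left k ((hp.coprime_iff_not_dvd).2 hnd)
  have hline : ∀ a : Γ, a ≠ 1 → a ∈ (R : Subgroup Γ) → Z ⊓ Subgroup.centralizer ({a} : Set Γ) ≤ K := by
    rintro a ha1 haR z ⟨-, hz⟩
    refine hK z a ha1 haR ?_
    have h := Subgroup.mem_centralizer_iff.1 hz a rfl
    rw [← h, mul_inv_cancel_right]
    exact haR
  have hnorm : (Z : Subgroup Γ).Normal := inferInstance
  have hZK : Z ≤ K := by
    refine CfsgLib.Coprime.le_of_lines (q := p) hAcomm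
      (show e ∈ A from Subgroup.subset_closure (by simp)) (show f ∈ A from Subgroup.subset_closure (by simp))
      (fun x _ => by rw [Subgroup.normalizer_eq_top]; trivial) hcop hnd
      (by rw [hep]; exact one_mem _) (by rw [hfp]; exact one_mem _)
      (fun i => hline _ ?_ (mul_mem heR (pow_mem hfR i))) (hline f hf1 hfR)
    intro h
    refine he1 (hdisj e heR ⟨heY, ?_⟩)
    rw [eq_inv_of_mul_eq_one_left h]
    exact Y₂.inv_mem (Y₂.pow_mem hfY i)
  apply not_le_of_normal hK hKtop hp1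
  intro y hy
  set F := Subgroup.zpowers f with hF
  set L := F ⊔ Z with hL
  have hFR : F ≤ (R : Subgroup Γ) := Subgroup.zpowers_le.2 hfR
  have hLK : L ≤ K := sup_le (fun x hx => mem_of_mem_sylow hK hRne (hFR hx)) hZK
  have hFZ : Z.relIndex F = Nat.card F := by
    rw [← Subgroup.inf_relIndex_right, show Z ⊓ F = ⊥ from ?_, Subgroup.relIndex_bot_left]
    rw [Subgroup.eq_bot_iff_forall]
    rintro x ⟨hxZ, hxF⟩
    exact hdisj x (hFR hxF) hxZ
  have hidx : ¬ p ∣ F.relIndex L := by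
    have h := Subgroup.relIndex_mul_relIndex ⊥ F L bot_le le_sup_left
    have h' := Subgroup.relIndex_mul_relIndex ⊥ Z L bot_le le_sup_right
    rw [← h, show Z.relIndex L = Nat.card F from by rw [hL, Subgroup.relIndex_sup_right, hFZ],
      Subgroup.relIndex_bot_left, Subgroup.relIndex_bot_left, mul_comm (Nat.card Z)] at h'
    rwa [← Nat.eq_of_mul_eq_mul_left Nat.card_pos h']
  have hyf : y * f * y⁻¹ ∈ L := by
    have hz : y * f * y⁻¹ * f⁻¹ ∈ Z := by
      refine ⟨?_, Y₂.mul_mem (h2.conj_mem f hfY y) (Y₂.inv_mem hfY)⟩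
      rw [show y * f * y⁻¹ * f⁻¹ = y * (f * y⁻¹ * f⁻¹) by group]
      exact Y₁.mul_mem hy (h1.conj_mem _ (Y₁.inv_mem hy) f)
    have := mul_mem (Subgroup.mem_sup_right hz : _ ∈ L) (Subgroup.mem_sup_left (Subgroup.mem_zpowers f))
    rwa [inv_mul_cancel_right] at this
  obtain ⟨z, hz, hle⟩ := CfsgLib.Alperin.exists_mem_conj_map_le (le_sup_left : F ≤ L) (R.2.to_le hFR) hidx
    (A := Subgroup.zpowers (y * f * y⁻¹)) (Subgroup.zpowers_le.2 hyf)
    (IsPGroup.of_card (n := 1) (by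
      rw [Nat.card_zpowers, pow_one]
      exact (MulEquiv.orderOf_eq (MulAut.conj y) f).trans hfo))
  have h3 : z * y ∈ K := by
    refine hK _ f hf1 hfR ?_
    have h := hFR (hle (CfsgLib.Alperin.conj_mem_conj_map z (Subgroup.mem_zpowers _)))
    rwa [show z * y * f * (z * y)⁻¹ = z * (y * f * y⁻¹) * z⁻¹ by group]
  have := mul_mem (inv_mem (hLK hz)) h3
  rwa [inv_mul_cancel_left] at this

theorem exists_least_normal {R : Sylow p Γ} {K : Subgroup Γ} (hK : ControlsMeet R K) (hKtop : K ≠ ⊤)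
    (hR : (R : Subgroup Γ) ≠ ⊥) :
    ∃ X : Subgroup Γ, X.Normal ∧ p ∣ Nat.card X ∧ ∀ Y : Subgroup Γ, Y.Normal → p ∣ Nat.card Y → X ≤ Y := by
  have htop : p ∣ Nat.card (⊤ : Subgroup Γ) := by
    rw [Subgroup.card_top]
    rcases R.2.card_eq_or_dvd with h | h
    · exact absurd ((R : Subgroup Γ).card_eq_one.1 h) hR
    · exact h.trans (Subgroup.card_subgroup_dvd_card _)
  obtain ⟨X, ⟨hXn, hXp⟩, hXmin⟩ :=
    (Set.toFinite {Y : Subgroup Γ | Y.Normal ∧ p ∣ Nat.card Y}).exists_minimal ⟨⊤, inferInstance, htop⟩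
  refine ⟨X, hXn, hXp, fun Y hY hp => ?_⟩
  haveI := hXn
  haveI := hY
  exact (hXmin ⟨inferInstance, dvd_card_inf hK hKtop hXp hp⟩ inf_le_left).trans inf_le_right

end CfsgLib.Alperin48
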