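import Cfsg.Agent.Alperin48.Embedded
import Cfsg.Agent.Alperin.Chain
import Cfsg.Agent.Eq.Def_Transfer

/-!
The strong form of the Alperin–Goldschmidt theorem: besides the elements of `N(P)` only elements of
`O^p(X)` are needed, where `N(D)` is not generated by the elements carrying a member of `P ⊓ N(D)` outside
`D` into `P`, and `X / D` is the least normal subgroup of `N(D) / D` of order divisible by `p`.
-/

set_option autoImplicit false

namespace CfsgLib.Alperin48

open CfsgLib.Alperin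

variable {G : Type*} [Group G] {p : ℕ}

/-- Generated by the elements of `N(D)` that carry something of `(P ⊓ N(D)) \ D` into `P`. -/
def meetClosure (P : Subgroup G) (D : Subgroup G) : Subgroup G :=
  Subgroup.closure {n | n ∈ Subgroup.normalizer (D : Set G) ∧
    ∃ a, a ∈ P ∧ a ∈ Subgroup.normalizer (D : Set G) ∧ a ∉ D ∧ n * a * n⁻¹ ∈ P}

/-- Generated by the elements of `Y` of order prime to `p`. -/
def primeToClosure (p : ℕ) (Y : Subgroup G) : Subgroup G :=
  Subgroup.closure {z | z ∈ Y ∧ Nat.Coprime (orderOf z) p}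

theorem primeToClosure_mono {Y Z : Subgroup G} (h : Y ≤ Z) : primeToClosure p Y ≤ primeToClosure p Z :=
  Subgroup.closure_mono fun _ hz => ⟨h hz.1, hz.2⟩

theorem map_pResidual (Y : Subgroup G) :
    (Cfsg.pResidual p ↥Y).map Y.subtype = primeToClosure p Y := by
  rw [Cfsg.pResidual, MonoidHom.map_closure, primeToClosure]
  congr 1
  ext z
  constructor
  · rintro ⟨y, hy, rfl⟩
    exact ⟨y.2, by rw [Subgroup.coe_subtype, Subgroup.orderOf_coe]; exact hy⟩
  · rintro ⟨hz, ho⟩
    exact ⟨⟨z, hz⟩, by simpa using ho, rfl⟩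

theorem primeToClosure_conj (Y : Subgroup G) (y : G) :
    (primeToClosure p Y).map (MulAut.conj y).toMonoidHom ≤
      primeToClosure p (Y.map (MulAut.conj y).toMonoidHom) := by
  rw [primeToClosure, MonoidHom.map_closure, primeToClosure]
  refine Subgroup.closure_mono ?_
  rintro _ ⟨z, ⟨hz, ho⟩, rfl⟩
  refine ⟨conj_mem_conj_map y hz, ?_⟩
  rwa [show orderOf ((MulAut.conj y).toMonoidHom z) = orderOf z from MulEquiv.orderOf_eq (MulAut.conj y) z]

theorem meetClosure_conj {P D : Subgroup G} {y : G} (hP : P.map (MulAut.conj y).toMonoidHom = P) :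
    meetClosure P (D.map (MulAut.conj y).toMonoidHom) ≤
      (meetClosure P D).map (MulAut.conj y).toMonoidHom := by
  refine (Subgroup.closure_le _).2 ?_
  rintro n ⟨hn, a, haP, haN, haD, hna⟩
  rw [← normalizer_conj_map] at hn haN
  rw [mem_conj_map] at hn haN haD
  rw [← hP, mem_conj_map] at haP hna
  refine mem_conj_map.2 (Subgroup.subset_closure ⟨hn, y⁻¹ * a * y, haP, haN, haD, ?_⟩)
  rwa [show y⁻¹ * n * y * (y⁻¹ * a * y) * (y⁻¹ * n * y)⁻¹ = y⁻¹ * (n * a * n⁻¹) * y by group]

theorem centralizer_conj_map (H : Subgroup G) (y : G) :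
    Subgroup.centralizer ((H.map (MulAut.conj y).toMonoidHom : Subgroup G) : Set G) =
      (Subgroup.centralizer (H : Set G)).map (MulAut.conj y).toMonoidHom := by
  ext x
  rw [mem_centralizer_conj_map, mem_conj_map]

/-- `D` is radical in the form used by `CfsgLib.Alperin`. -/
def IsRadicalIn (P : Subgroup G) (D : Subgroup G) : Prop :=
  ∀ W : Subgroup G, Subgroup.centralizer (D : Set G) ≤ W → W ≤ Subgroup.normalizer (D : Set G) →
    Subgroup.normalizer (D : Set G) ≤ Subgroup.normalizer (W : Set G) →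
    W ≤ Subgroup.centralizer (D : Set G) ⊔ (P ⊓ W) → P ⊓ W ≤ D

/-- A step of the strong form of Alperin's theorem. -/
def IsStrongStep (p : ℕ) (P : Subgroup G) (D : Subgroup G) (x : G) : Prop :=
  D < P ∧ ¬ p ∣ (P ⊓ Subgroup.normalizer (D : Set G)).relIndex (Subgroup.normalizer (D : Set G)) ∧
    IsRadicalIn P D ∧ ¬ Subgroup.normalizer (D : Set G) ≤ meetClosure P D ∧
    ∀ Y : Subgroup G, D ≤ Y → Y ≤ Subgroup.normalizer (D : Set G) →
      Subgroup.normalizer (D : Set G) ≤ Subgroup.normalizer (Y : Set G) → p ∣ D.relIndex Y →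
      x ∈ primeToClosure p Y

theorem IsStrongStep.conj {P D : Subgroup G} {x y : G} (h : IsStrongStep p P D x)
    (hP : P.map (MulAut.conj y).toMonoidHom = P) :
    IsStrongStep p P (D.map (MulAut.conj y).toMonoidHom) (y * x * y⁻¹) := by
  obtain ⟨hlt, hfull, hrad, hnot, hx⟩ := h
  set D' := D.map (MulAut.conj y).toMonoidHom with hD'
  have hle : D' ≤ P := hP ▸ Subgroup.map_mono hlt.le
  refine ⟨lt_of_le_of_ne hle fun he => hlt.ne ?_, ?_, ?_, ?_, ?_⟩
  · rw [← conj_map_map_inv D y, ← hD', he]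
    conv_lhs => rw [← hP, conj_map_map_inv]
  · rw [hD', ← normalizer_conj_map]
    conv => rw [← hP, ← conj_map_inf, Subgroup.relIndex_map_map_of_injective _ _ (MulAut.conj y).injective]
    exact hfull
  · intro W hCW hWN hNW hgen
    obtain ⟨W, rfl⟩ : ∃ W₀ : Subgroup G, W = W₀.map (MulAut.conj y).toMonoidHom :=
      ⟨_, (conj_map_inv_map W y).symm⟩
    have hinj : ∀ A B : Subgroup G,
        A.map (MulAut.conj y).toMonoidHom ≤ B.map (MulAut.conj y).toMonoidHom ↔ A ≤ B := fun A B =>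
      Subgroup.map_le_map_iff_of_injective (MulAut.conj y).injective
    rw [hD', centralizer_conj_map] at hCW hgen
    rw [hD', ← normalizer_conj_map] at hWN hNW
    rw [← normalizer_conj_map] at hNW
    rw [← hP, ← conj_map_inf] at hgen ⊢
    rw [← Subgroup.map_sup] at hgen
    exact Subgroup.map_mono (hrad W ((hinj _ _).1 hCW) ((hinj _ _).1 hWN) ((hinj _ _).1 hNW) ((hinj _ _).1 hgen))
  · intro hN
    apply hnot
    rw [← Subgroup.map_le_map_iff_of_injective (f := (MulAut.conj y).toMonoidHom) (MulAut.conj y).injective,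
      normalizer_conj_map]
    exact hN.trans (meetClosure_conj hP)
  · intro Y hDY hYN hNY hdvd
    obtain ⟨Y, rfl⟩ : ∃ Y₀ : Subgroup G, Y = Y₀.map (MulAut.conj y).toMonoidHom :=
      ⟨_, (conj_map_inv_map Y y).symm⟩
    have hinj : ∀ A B : Subgroup G,
        A.map (MulAut.conj y).toMonoidHom ≤ B.map (MulAut.conj y).toMonoidHom ↔ A ≤ B := fun A B =>
      Subgroup.map_le_map_iff_of_injective (MulAut.conj y).injective
    rw [hD', ← normalizer_conj_map] at hYN hNY
    rw [← normalizer_conj_map] at hNY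
    rw [hD', Subgroup.relIndex_map_map_of_injective _ _ (MulAut.conj y).injective] at hdvd
    exact primeToClosure_conj Y y
      (conj_mem_conj_map y (hx Y ((hinj _ _).1 hDY) ((hinj _ _).1 hYN) ((hinj _ _).1 hNY) hdvd))

theorem chain_conj {P : Subgroup G} {A : Set G} {g y : G} (h : Chain (IsStrongStep p P) A g)
    (hP : P.map (MulAut.conj y).toMonoidHom = P) :
    Chain (IsStrongStep p P) ((fun a => y * a * y⁻¹) '' A) (y * g * y⁻¹) := by
  induction h with
  | nil A => simpa using Chain.nil _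
  | cons A D x g hD hA _ ih =>
    rw [show y * (x * g) * y⁻¹ = y * x * y⁻¹ * (y * g * y⁻¹) by group]
    refine Chain.cons _ _ _ _ (hD.conj hP) ?_ ?_
    · rintro _ ⟨a, ha, rfl⟩
      exact conj_mem_conj_map y (hA ha)
    · convert ih using 1
      rw [Set.image_image, Set.image_image]
      refine congrArg (fun f => f '' A) (funext fun a => ?_)
      group

variable [Finite G] [Fact p.Prime]

/-- The setting in `N(D) / D`. -/
theorem exists_quotient_setting (P : Sylow p G) {D : Subgroup G} (hD : D < (P : Subgroup G))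
    (hfull : ¬ p ∣ ((P : Subgroup G) ⊓ Subgroup.normalizer (D : Set G)).relIndex
      (Subgroup.normalizer (D : Set G))) :
    ∃ (R : Sylow p (↥(Subgroup.normalizer (D : Set G)) ⧸ D.subgroupOf (Subgroup.normalizer (D : Set G))))
      (K : Subgroup (↥(Subgroup.normalizer (D : Set G)) ⧸ D.subgroupOf (Subgroup.normalizer (D : Set G)))),
      R.toSubgroup ≠ ⊥ ∧ ControlsMeet R K ∧
      (K = ⊤ → Subgroup.normalizer (D : Set G) ≤ meetClosure (P : Subgroup G) D) := by
  set N := Subgroup.normalizer (D : Set G) with hN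
  set f := QuotientGroup.mk' (D.subgroupOf N) with hf
  let R₀ : Sylow p ↥N :=
    ((P.2.to_le inf_le_left : IsPGroup p ↥((P : Subgroup G) ⊓ N)).of_equiv
      (Subgroup.subgroupOfEquivOfLe inf_le_right).symm :
        IsPGroup p ↥(((P : Subgroup G) ⊓ N).subgroupOf N)).toSylow hfull
  let R := R₀.mapSurjective (f := f) (QuotientGroup.mk'_surjective _)
  have hmemR : ∀ q : ↥N, f q ∈ (R : Subgroup _) ↔ (q : G) ∈ (P : Subgroup G) := by
    intro q
    show f q ∈ (R₀ : Subgroup ↥N).map f ↔ _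
    constructor
    · rintro ⟨r, hr, hrq⟩
      have h1 : r⁻¹ * q ∈ D.subgroupOf N := QuotientGroup.eq.1 hrq
      rw [show q = r * (r⁻¹ * q) by group]
      exact (P : Subgroup G).mul_mem (show (r : G) ∈ _ from hr.1) (hD.le h1)
    · exact fun hq => ⟨q, ⟨hq, q.2⟩, rfl⟩
  obtain ⟨a, haPN, haD⟩ := SetLike.exists_of_lt (lt_inf_normalizer P.2 hD)
  refine ⟨R, ((meetClosure (P : Subgroup G) D).subgroupOf N).map f, ?_, ?_, ?_⟩
  · intro h
    have h1 := (hmemR ⟨a, haPN.2⟩).2 haPN.1
    rw [h, Subgroup.mem_bot] at h1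
    exact haD ((QuotientGroup.eq_one_iff (⟨a, haPN.2⟩ : ↥N)).1 h1)
  · intro c b hb1 hbR hcb
    obtain ⟨c, rfl⟩ := QuotientGroup.mk'_surjective (D.subgroupOf N) c
    obtain ⟨b, rfl⟩ := QuotientGroup.mk'_surjective (D.subgroupOf N) b
    rw [← map_inv, ← map_mul, ← map_mul] at hcb
    refine ⟨c, Subgroup.subset_closure ⟨c.2, (b : G), (hmemR b).1 hbR, b.2, ?_, ?_⟩, rfl⟩
    · exact fun hb => hb1 ((QuotientGroup.eq_one_iff _).2 hb)
    · exact (hmemR _).1 hcb
  · intro htop n hn
    have h1 : f ⟨n, hn⟩ ∈ ((meetClosure (P : Subgroup G) D).subgroupOf N).map f := by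
      rw [htop]; exact Subgroup.mem_top _
    obtain ⟨k, hk, hkn⟩ := h1
    have h2 : (k⁻¹ * ⟨n, hn⟩ : ↥N) ∈ D.subgroupOf N := QuotientGroup.eq.1 hkn
    have h3 : ((k⁻¹ * ⟨n, hn⟩ : ↥N) : G) ∈ meetClosure (P : Subgroup G) D := by
      refine Subgroup.subset_closure ⟨(k⁻¹ * ⟨n, hn⟩ : ↥N).2, a, haPN.1, haPN.2, haD, ?_⟩
      exact mul_mem (mul_mem (hD.le h2) haPN.1) (inv_mem (hD.le h2))
    have h4 := mul_mem (show (k : G) ∈ meetClosure (P : Subgroup G) D from hk) h3
    simpa using h4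

/-- If `N(D)` is not generated by the meeting elements, `N(D)/D` is not chain-connected. -/
theorem not_chainConnected (P : Sylow p G) {D : Subgroup G} (hD : D < (P : Subgroup G))
    (hfull : ¬ p ∣ ((P : Subgroup G) ⊓ Subgroup.normalizer (D : Set G)).relIndex
      (Subgroup.normalizer (D : Set G)))
    (hnot : ¬ Subgroup.normalizer (D : Set G) ≤ meetClosure (P : Subgroup G) D) :
    ¬ Cfsg.IsSylowChainConnected p
      (↥(Subgroup.normalizer (D : Set G)) ⧸ D.subgroupOf (Subgroup.normalizer (D : Set G))) := by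
  obtain ⟨R, K, hR, hK, htop⟩ := exists_quotient_setting P hD hfull
  exact fun hc => hnot (htop (eq_top_of_chainConnected hK hR hc))

/-- The least normal subgroup of `N(D)` above `D` with relative order divisible by `p`. -/
theorem exists_least (P : Sylow p G) {D : Subgroup G} (hD : D < (P : Subgroup G))
    (hfull : ¬ p ∣ ((P : Subgroup G) ⊓ Subgroup.normalizer (D : Set G)).relIndex
      (Subgroup.normalizer (D : Set G)))
    (hnot : ¬ Subgroup.normalizer (D : Set G) ≤ meetClosure (P : Subgroup G) D) :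
    ∃ X : Subgroup G, D ≤ X ∧ X ≤ Subgroup.normalizer (D : Set G) ∧
      Subgroup.normalizer (D : Set G) ≤ Subgroup.normalizer (X : Set G) ∧ p ∣ D.relIndex X ∧
      ∀ Y : Subgroup G, D ≤ Y → Y ≤ Subgroup.normalizer (D : Set G) →
        Subgroup.normalizer (D : Set G) ≤ Subgroup.normalizer (Y : Set G) → p ∣ D.relIndex Y → X ≤ Y := by
  obtain ⟨R, K, hR, hK, htop⟩ := exists_quotient_setting P hD hfull
  obtain ⟨X₀, hX₀n, hX₀p, hleast⟩ := exists_least_normal hK (fun h => hnot (htop h)) hR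
  set N := Subgroup.normalizer (D : Set G) with hN
  set f := QuotientGroup.mk' (D.subgroupOf N) with hf
  have hrel : ∀ Y' : Subgroup ↥N, (D.subgroupOf N).relIndex Y' = Nat.card ↥(Y'.map f) := by
    intro Y'
    rw [← Subgroup.relIndex_bot_left, ← Subgroup.relIndex_comap, MonoidHom.comap_bot, hf, QuotientGroup.ker_mk']
  have hker : D.subgroupOf N ≤ X₀.comap f := fun d hd => by
    have h1 : f d = 1 := (QuotientGroup.eq_one_iff d).2 hd
    rw [Subgroup.mem_comap, h1]
    exact one_mem _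
  refine ⟨(X₀.comap f).map N.subtype, ?_, Subgroup.map_subtype_le _, ?_, ?_, ?_⟩
  · intro d hd
    exact ⟨⟨d, Subgroup.le_normalizer hd⟩, hker hd, rfl⟩
  · refine (Subgroup.normal_subgroupOf_iff_le_normalizer (Subgroup.map_subtype_le _)).1 ?_
    rw [← Subgroup.comap_subtype, Subgroup.comap_map_eq_self_of_injective N.subtype_injective]
    infer_instance
  · have hsub : ((X₀.comap f).map N.subtype).subgroupOf N = X₀.comap f :=
      Subgroup.comap_map_eq_self_of_injective N.subtype_injective _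
    rw [← Subgroup.relIndex_subgroupOf (Subgroup.map_subtype_le _), hsub, hrel,
      Subgroup.map_comap_eq_self_of_surjective (QuotientGroup.mk'_surjective _)]
    exact hX₀p
  · intro Y hDY hYN hNY hdvd
    haveI := (Subgroup.normal_subgroupOf_iff_le_normalizer hYN).2 hNY
    have h1 : X₀ ≤ (Y.subgroupOf N).map f := by
      refine hleast _ (Subgroup.Normal.map inferInstance f (QuotientGroup.mk'_surjective _)) ?_
      rwa [← hrel, Subgroup.relIndex_subgroupOf hYN]
    rintro _ ⟨x, hx, rfl⟩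
    obtain ⟨y, hy, hyx⟩ := h1 hx
    have h2 : y⁻¹ * x ∈ D.subgroupOf N := QuotientGroup.eq.1 hyx
    rw [show x = y * (y⁻¹ * x) by group]
    exact Y.mul_mem hy (hDY h2)

/-- A subgroup containing all elements of order prime to `p` and of index prime to `p` is everything. -/
theorem eq_top_of_index {Γ : Type*} [Group Γ] [Finite Γ] {M : Subgroup Γ}
    (h : ∀ x : Γ, Nat.Coprime (orderOf x) p → x ∈ M) (hidx : ¬ p ∣ M.index) : M = ⊤ := by
  by_contra hne
  obtain ⟨q, hq, hqd⟩ := Nat.exists_prime_and_dvd (mt Subgroup.index_eq_one.1 hne)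
  haveI := Fact.mk hq
  have hqp : q ≠ p := fun he => hidx (he ▸ hqd)
  obtain ⟨Q⟩ : Nonempty (Sylow q Γ) := inferInstance
  refine Q.not_dvd_index (hqd.trans (Subgroup.index_dvd_of_le fun x hx => h x ?_))
  obtain ⟨k, hk⟩ := IsPGroup.iff_orderOf.1 Q.2 ⟨x, hx⟩
  rw [Subgroup.orderOf_mk] at hk
  rw [hk]
  exact Nat.Coprime.pow_left k ((Nat.coprime_primes hq Fact.out).2 hqp)

/-- Conjugation by `k` on `H` is a product of strong steps, up to `C(H)` and `N(P)`. -/
def StrongGood (P : Sylow p G) (H : Subgroup G) (k : G) : Prop :=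
  ∀ B : Set G, B ⊆ (H : Set G) →
    ∃ c ∈ Subgroup.centralizer B, ∃ g' y : G, y ∈ Subgroup.normalizer ((P : Subgroup G) : Set G) ∧
      Chain (IsStrongStep p (P : Subgroup G)) B g' ∧ k⁻¹ = c * g' * y

theorem StrongGood.restrict (P : Sylow p G) {H K : Subgroup G} {k : G} (hHK : H ≤ K)
    (h : StrongGood P K k) : StrongGood P H k :=
  fun B hB => h B (hB.trans hHK)

theorem StrongGood.comp (P : Sylow p G) {H : Subgroup G} {g k : G} (h1 : StrongGood P H g)
    (h2 : StrongGood P (H.map (MulAut.conj g).toMonoidHom) k) : StrongGood P H (k * g) := by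
  intro B hB
  obtain ⟨c, hc, g', y, hy, hch, hgc⟩ := h1 B hB
  have hconj : ∀ b ∈ B, (g' * y)⁻¹ * b * (g' * y) = g * b * g⁻¹ := by
    intro b hb
    have hcb := Subgroup.mem_centralizer_iff.1 hc b hb
    have hg : g = (g' * y)⁻¹ * c⁻¹ := by rw [← mul_inv_rev, ← mul_assoc, ← hgc, inv_inv]
    rw [hg]
    calc (g' * y)⁻¹ * b * (g' * y) = (g' * y)⁻¹ * (c⁻¹ * (c * b)) * (g' * y) := by group
      _ = (g' * y)⁻¹ * (c⁻¹ * (b * c)) * (g' * y) := by rw [hcb]
      _ = (g' * y)⁻¹ * c⁻¹ * b * ((g' * y)⁻¹ * c⁻¹)⁻¹ := by group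
  obtain ⟨d, hd, k', z, hz, hch', hkd⟩ := h2 ((fun a => (g' * y)⁻¹ * a * (g' * y)) '' B) (by
    rintro _ ⟨b, hb, rfl⟩
    show (g' * y)⁻¹ * b * (g' * y) ∈ _
    rw [hconj b hb]
    exact conj_mem_conj_map g (hB hb))
  refine ⟨c * ((g' * y) * d * (g' * y)⁻¹), Subgroup.mul_mem _ hc ?_, g' * (y * k' * y⁻¹), y * z,
    Subgroup.mul_mem _ hy hz, hch.append ?_, ?_⟩
  · rw [Subgroup.mem_centralizer_iff]
    intro b hb
    have h3 := Subgroup.mem_centralizer_iff.1 hd _ ⟨b, hb, rfl⟩
    calc b * (g' * y * d * (g' * y)⁻¹) = (g' * y) * ((g' * y)⁻¹ * b * (g' * y) * d) * (g' * y)⁻¹ := by group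
      _ = (g' * y) * (d * ((g' * y)⁻¹ * b * (g' * y))) * (g' * y)⁻¹ := by rw [h3]
      _ = g' * y * d * (g' * y)⁻¹ * b := by group
  · convert chain_conj hch' (conj_map_eq_of_mem_normalizer hy) using 1
    rw [Set.image_image]
    refine congrArg (fun f => f '' B) (funext fun a => ?_)
    group
  · rw [mul_inv_rev, hgc, hkd]
    group

theorem StrongGood.of_centralizer (P : Sylow p G) {H : Subgroup G} {c : G}
    (hc : c ∈ Subgroup.centralizer (H : Set G)) : StrongGood P H c :=
  fun _ hB => ⟨c⁻¹, Subgroup.inv_mem _ (Subgroup.centralizer_le hB hc), 1, 1, Subgroup.one_mem _,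
    Chain.nil _, by simp⟩

theorem strongGood (P : Sylow p G) (H : Subgroup G) (g : G) (hH : H ≤ (P : Subgroup G))
    (hg : H.map (MulAut.conj g).toMonoidHom ≤ (P : Subgroup G)) : StrongGood P H g := by
  suffices key : ∀ (j : ℕ) (H : Subgroup G) (g : G), Nat.card (P : Subgroup G) - Nat.card H = j →
      H ≤ (P : Subgroup G) → H.map (MulAut.conj g).toMonoidHom ≤ (P : Subgroup G) → StrongGood P H g from
    key _ H g rfl hH hg
  intro j
  induction j using Nat.strong_induction_on with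
  | _ j IH =>
  intro H₀ g₀ hj hH₀ hg₀
  refine centric_radical_induction P (fun H k => Nat.card H₀ ≤ Nat.card H → StrongGood P H k)
    (fun H K k hHK _ _ hK hc => StrongGood.restrict P hHK (hK (hc.trans (Subgroup.card_le_of_le hHK))))
    (fun H g k _ _ _ h1 h2 hc => StrongGood.comp P (h1 hc) (h2 (by rwa [card_conj_map])))
    (fun H c _ hc _ => StrongGood.of_centralizer P hc) ?_ H₀ g₀ hH₀ hg₀ le_rfl
  intro U T hT hfull _ hrad n hn _ hcard
  have hUP : U ≤ (P : Subgroup G) := hT ▸ inf_le_left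
  rcases hUP.eq_or_lt with heq | hlt
  · refine fun B _ => ⟨1, Subgroup.one_mem _, 1, n⁻¹, Subgroup.inv_mem _ ?_, Chain.nil _, by simp⟩
    rwa [← heq]
  set N := Subgroup.normalizer (U : Set G) with hN
  -- conjugations that extend above `U` are good
  have hmeet : ∀ m ∈ N, (∃ a, a ∈ (P : Subgroup G) ∧ a ∈ N ∧ a ∉ U ∧ m * a * m⁻¹ ∈ (P : Subgroup G)) →
      StrongGood P U m := by
    rintro m hm ⟨a, haP, -, haU, hma⟩
    set E := U ⊔ Subgroup.zpowers a with hE
    have hEP : E ≤ (P : Subgroup G) := sup_le hUP (Subgroup.zpowers_le.2 haP)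
    have hUE : U < E := lt_of_le_of_ne le_sup_left fun he =>
      haU (he ▸ Subgroup.mem_sup_right (Subgroup.mem_zpowers a))
    have hcE : Nat.card U < Nat.card E := lt_of_le_of_ne (Subgroup.card_le_of_le hUE.le) fun he =>
      hUE.ne (Subgroup.eq_of_le_of_card_ge hUE.le he.ge)
    have hEm : E.map (MulAut.conj m).toMonoidHom ≤ (P : Subgroup G) := by
      rw [hE, Subgroup.map_sup, conj_map_eq_of_mem_normalizer hm, MonoidHom.map_zpowers]
      exact sup_le hUP (Subgroup.zpowers_le.2 hma)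
    refine StrongGood.restrict P le_sup_left (IH (Nat.card (P : Subgroup G) - Nat.card E) ?_ E m rfl hEP hEm)
    have := Subgroup.card_le_of_le hEP
    omega
  have hone : StrongGood P U 1 := StrongGood.of_centralizer P (Subgroup.one_mem _)
  have hgen : ∀ (s : Set G), (∀ x ∈ s, x ∈ N ∧ StrongGood P U x) → ∀ x ∈ Subgroup.closure s,
      StrongGood P U x := fun s hs x hx =>
    (good_of_mem_closure P (fun H k => StrongGood P H k) (fun H g k _ _ _ => StrongGood.comp P) hUP hone
      hs hx).2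
  by_cases hnot : N ≤ meetClosure (P : Subgroup G) U
  · exact hgen _ (fun x hx => ⟨hx.1, hmeet x hx.1 hx.2⟩) n (hnot hn)
  obtain ⟨X, hUX, hXN, hNX, hXp, hleast⟩ := exists_least P hlt hfull hnot
  have hidx := not_dvd_relIndex_inf P hfull hXN hNX
  obtain ⟨a, haPX, haU⟩ : ∃ a, a ∈ (P : Subgroup G) ⊓ X ∧ a ∉ U := by
    by_contra h
    simp only [not_exists, not_and, not_not] at h
    exact hidx (hXp.trans (Subgroup.relIndex_dvd_of_le_left X h))
  have haN : a ∈ N := hXN haPX.2
  obtain ⟨x, hx, hle⟩ := exists_mem_conj_map_le (inf_le_right : (P : Subgroup G) ⊓ X ≤ X)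
    (P.2.to_le inf_le_left) hidx (A := ((P : Subgroup G) ⊓ X).map (MulAut.conj n).toMonoidHom)
    ((Subgroup.map_mono inf_le_right).trans (conj_map_eq_of_mem_normalizer (hNX hn)).le)
    ((P.2.to_le inf_le_left).map _)
  rw [conj_map_map] at hle
  refine hgen (((primeToClosure p X : Subgroup G) : Set G) ∪
    {m | m ∈ N ∧ ∃ b, b ∈ (P : Subgroup G) ∧ b ∈ N ∧ b ∉ U ∧ m * b * m⁻¹ ∈ (P : Subgroup G)}) ?_ n ?_
  · rintro z (hz | hz)
    · refine ⟨hXN ((Subgroup.closure_le X).2 (fun w hw => hw.1) hz), fun B hB =>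
        ⟨1, Subgroup.one_mem _, z⁻¹, 1, Subgroup.one_mem _, Chain.single ?_ hB, by simp⟩⟩
      exact ⟨hlt, hfull, hrad, hnot,
        fun Y h1 h2 h3 h4 => Subgroup.inv_mem _ (primeToClosure_mono (hleast Y h1 h2 h3 h4) hz)⟩
    · exact ⟨hz.1, hmeet z hz.1 hz.2⟩
  set M := Subgroup.closure (((primeToClosure p X : Subgroup G) : Set G) ∪
    {m | m ∈ N ∧ ∃ b, b ∈ (P : Subgroup G) ∧ b ∈ N ∧ b ∉ U ∧ m * b * m⁻¹ ∈ (P : Subgroup G)}) with hM
  have hxn : x * n ∈ M := Subgroup.subset_closure <| Or.inr ⟨N.mul_mem (hXN hx) hn, a, haPX.1, haN, haU,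
    (hle (conj_mem_conj_map _ haPX)).1⟩
  have hXM : X ≤ M := by
    rw [← Subgroup.subgroupOf_eq_top]
    refine eq_top_of_index (p := p) (fun z hz => ?_) ?_
    · refine Subgroup.subset_closure (Or.inl (Subgroup.subset_closure ⟨z.2, ?_⟩))
      rwa [Subgroup.coe_subtype, Subgroup.orderOf_coe]
    · intro hd
      refine hidx (hd.trans ?_)
      refine (Subgroup.index_dvd_of_le ?_ : _ ∣ (((P : Subgroup G) ⊓ X).subgroupOf X).index)
      intro r hr
      refine Subgroup.subset_closure (Or.inr ⟨hXN r.2, a, haPX.1, haN, haU, ?_⟩)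
      exact mul_mem (mul_mem hr.1 haPX.1) (inv_mem hr.1)
  have := M.mul_mem (M.inv_mem (hXM hx)) hxn
  rwa [inv_mul_cancel_left] at this

end CfsgLib.Alperin48
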